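import Cfsg.Prelude.Def_LieTypeChar
import Cfsg.Agent.H601.OddDeg.Defs
import Cfsg.Agent.LieClassical.OrthFinite
import Cfsg.Agent.LieClassical.OrthForms
import Cfsg.Agent.ClassicalGeometry.SymmNormalForm

/-!
# `TwoC` for the orthogonal groups in odd characteristic (S4948, task 357)
-/

set_option autoImplicit false
set_option linter.unusedSectionVars false
set_option linter.unusedSimpArgs false

namespace Cfsg.Agent.H493.OddDeg.Orth

open Cfsg Subgroup QuadraticMap Module Cfsg.Agent.H601.OddDeg
open Cfsg.Agent.LieClassical.OrthCore Cfsg.Agent.LieClassical.OrthForms Cfsg.Agent.LieClassical.OrthFinite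
open scoped commutatorElement

section

variable {F V : Type*} [Field F] [AddCommGroup V] [Module F V] {Q : QuadraticForm F V}
  {ι : Type*} [Finite ι] [DecidableEq ι] (b : Basis ι F V)

theorem mem_O_of_basis (h2 : (2 : F) ≠ 0) {f : V ≃ₗ[F] V}
    (hf : ∀ i j, polar Q (f (b i)) (f (b j)) = polar Q (b i) (b j)) : f ∈ O Q := by
  have h1 : (polarBilin Q).compl₁₂ f.toLinearMap f.toLinearMap = polarBilin Q := by
    apply LinearMap.BilinForm.ext_basis b
    intro i j
    exact hf i j
  intro v
  have h3 : polar Q (f v) (f v) = polar Q v v := by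
    have := congrArg (fun B : LinearMap.BilinForm F V => B v v) h1
    exact this
  rw [polar_self', polar_self'] at h3
  exact mul_left_cancel₀ h2 h3

/-- diagonal map -/
noncomputable def diagE (w : ι → Fˣ) : V ≃ₗ[F] V := b.equiv (b.unitsSMul w) (Equiv.refl ι)

theorem diagE_apply (w : ι → Fˣ) (i : ι) : diagE b w (b i) = w i • b i := by
  rw [diagE, Basis.equiv_apply, Equiv.refl_apply, Basis.unitsSMul_apply]

/-- permutation of the basis -/
noncomputable def permE (s : Equiv.Perm ι) : V ≃ₗ[F] V := b.equiv b s

theorem permE_apply (s : Equiv.Perm ι) (i : ι) : permE b s (b i) = b (s i) := by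
  rw [permE, Basis.equiv_apply]

theorem permE_symm_apply (s : Equiv.Perm ι) (i : ι) : (permE b s)⁻¹ (b i) = b (s⁻¹ i) := by
  have h : (permE b s).symm (b i) = b (s⁻¹ i) := by
    rw [LinearEquiv.symm_apply_eq, permE_apply]
    simp
  exact h

variable (hb : ∀ i j, i ≠ j → polar Q (b i) (b j) = 0)

include hb in
theorem diagE_mem (h2 : (2 : F) ≠ 0) {w : ι → Fˣ} (hw : ∀ i, w i * w i = 1) : diagE b w ∈ O Q := by
  apply mem_O_of_basis b h2
  intro i j
  rw [diagE_apply, diagE_apply, Units.smul_def, Units.smul_def, polar_smul_left, polar_smul_right]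
  by_cases hij : i = j
  · subst hij
    have : (w i : F) * (w i : F) = 1 := by
      have := congrArg Units.val (hw i)
      simpa using this
    rw [smul_eq_mul, smul_eq_mul, ← mul_assoc, this, one_mul]
  · rw [hb i j hij]
    simp

include hb in
theorem permE_mem (h2 : (2 : F) ≠ 0) {s : Equiv.Perm ι} (hs : ∀ i, polar Q (b (s i)) (b (s i)) = polar Q (b i) (b i)) :
    permE b s ∈ O Q := by
  apply mem_O_of_basis b h2
  intro i j
  rw [permE_apply, permE_apply]
  by_cases hij : i = j
  · subst hij
    exact hs i
  · rw [hb i j hij, hb _ _ fun h => hij (s.injective h)]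

/-- sign change of two basis vectors -/
noncomputable def tE (i j : ι) : V ≃ₗ[F] V := diagE b fun k => if k = i ∨ k = j then -1 else 1

theorem tE_apply (i j k : ι) : tE b i j (b k) = if k = i ∨ k = j then -b k else b k := by
  rw [tE, diagE_apply]
  split_ifs with h
  · simp
  · simp

include hb in
theorem tE_mem (h2 : (2 : F) ≠ 0) {i j : ι} (hij : i ≠ j) (h : polar Q (b i) (b i) = polar Q (b j) (b j)) :
    tE b i j ∈ ⁅O Q, O Q⁆ := by
  have h1 : diagE b (fun k => if k = i then -1 else 1) ∈ O Q := diagE_mem b hb h2 (fun k => by split_ifs <;> simp)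
  have h3 : permE b (Equiv.swap i j) ∈ O Q := by
    apply permE_mem b hb h2
    intro k
    rcases eq_or_ne k i with rfl | hki
    · rw [Equiv.swap_apply_left, h]
    rcases eq_or_ne k j with rfl | hkj
    · rw [Equiv.swap_apply_right, h]
    · rw [Equiv.swap_apply_of_ne_of_ne hki hkj]
  have h4 : tE b i j = ⁅diagE b (fun k => if k = i then -1 else 1), permE b (Equiv.swap i j)⁆ := by
    have h5 : diagE b (fun k => if k = i then -1 else 1) * diagE b (fun k => if k = i then -1 else 1) = 1 := by
      apply LinearEquiv.toLinearMap_injective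
      apply b.ext
      intro k
      show diagE b _ (diagE b _ (b k)) = b k
      rw [diagE_apply, Units.smul_def, map_smul, diagE_apply, Units.smul_def]
      split_ifs <;> simp
    have h6 : (diagE b (fun k => if k = i then -1 else 1))⁻¹ = diagE b (fun k => if k = i then -1 else 1) :=
      inv_eq_of_mul_eq_one_right h5
    rw [commutatorElement_def, h6]
    apply LinearEquiv.toLinearMap_injective
    apply b.ext
    intro k
    show tE b i j (b k) = diagE b _ (permE b _ (diagE b _ ((permE b (Equiv.swap i j))⁻¹ (b k))))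
    rw [permE_symm_apply, Equiv.swap_inv, diagE_apply, Units.smul_def, map_smul, map_smul, permE_apply, diagE_apply,
      Equiv.swap_apply_self, tE_apply, Units.smul_def]
    rcases eq_or_ne k i with rfl | hki
    · rw [Equiv.swap_apply_left]
      simp [hij.symm]
    rcases eq_or_ne k j with rfl | hkj
    · rw [Equiv.swap_apply_right]
      simp [hki]
    · rw [Equiv.swap_apply_of_ne_of_ne hki hkj]
      simp [hki, hkj]
  rw [h4]
  exact commutator_mem_commutator h1 h3

/-- an isometry fixing all lines `⟨b k⟩` is an involution -/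
theorem sq_of_eig {g : V ≃ₗ[F] V} (hg : g ∈ O Q) (hne : ∀ k, polar Q (b k) (b k) ≠ 0)
    (h : ∀ k l, k ≠ l → b.repr (g (b k)) l = 0) : g * g = 1 := by
  have := Fintype.ofFinite ι
  have h1 : ∀ k, g (b k) = b.repr (g (b k)) k • b k := by
    intro k
    conv_lhs => rw [← b.sum_repr (g (b k))]
    rw [Finset.sum_eq_single k]
    · intro l _ hl
      rw [h k l hl.symm, zero_smul]
    · intro hk
      exact absurd (Finset.mem_univ k) hk
  apply LinearEquiv.toLinearMap_injective
  apply b.ext
  intro k
  show g (g (b k)) = b k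
  have h2 := polar_map hg (b k) (b k)
  have h3 := h1 k
  set c := b.repr (g (b k)) k
  rw [h3, polar_smul_left, polar_smul_right, smul_eq_mul, smul_eq_mul, ← mul_assoc] at h2
  have h4 : c * c = 1 := mul_right_cancel₀ (hne k) (by rw [h2, one_mul])
  rw [h3, map_smul, h3, smul_smul, h4, one_smul]

end

/-- **`TwoC` for orthogonal groups** -/
theorem twoC_O {F V : Type*} [Field F] [Finite F] [AddCommGroup V] [Module F V] [FiniteDimensional F V]
    (h2 : (2 : F) ≠ 0) {Q : QuadraticForm F V} (hQ : Nondeg Q) (hN : 4 ≤ finrank F V) :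
    TwoC (↥⁅O Q, O Q⁆ ⧸ center ↥⁅O Q, O Q⁆) := by
  classical
  have hfV : Finite V := Module.finite_of_finite F
  have hfin : Finite (V ≃ₗ[F] V) := Finite.of_injective (fun f : V ≃ₗ[F] V => (f : V → V)) DFunLike.coe_injective
  obtain ⟨n, hn⟩ : ∃ n, finrank F V = n + 1 := ⟨finrank F V - 1, by omega⟩
  have hch : ringChar F ≠ 2 := fun h => h2 (by
    have := CharP.cast_eq_zero F (ringChar F)
    rw [h] at this
    exact_mod_cast this)
  obtain ⟨α, hα⟩ := FiniteField.exists_nonsquare hch
  have hα0 : α ≠ 0 := by rintro rfl; exact hα ⟨0, by simp⟩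
  obtain ⟨b, hb1, hb2, hb3⟩ := ClassicalGeometry.SymmNormalForm.exists_basis_one_or_nonsquare h2 (polarBilin Q)
    ⟨fun x y => polar_comm Q x y⟩ ⟨fun x hx => hQ x fun y => hx y, fun x hx => hQ x fun y => by
      rw [polar_comm]; exact hx y⟩ hn α hα
  have hb1' : ∀ i j, i ≠ j → polar Q (b i) (b j) = 0 := hb1
  have hb2' : ∀ i, i ≠ Fin.last n → polar Q (b i) (b i) = 1 := hb2
  have hne : ∀ k, polar Q (b k) (b k) ≠ 0 := by
    intro k
    by_cases hk : k = Fin.last n
    · subst hk
      rcases hb3 with h | h
      · have h' : polar Q (b (Fin.last n)) (b (Fin.last n)) = 1 := h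
        rw [h']; exact one_ne_zero
      · have h' : polar Q (b (Fin.last n)) (b (Fin.last n)) = α := h
        rw [h']; exact hα0
    · rw [hb2' k hk]; exact one_ne_zero
  let D : Subgroup ↥⁅O Q, O Q⁆ :=
    { carrier := {g | ∀ k, g.1 (b k) = b k ∨ g.1 (b k) = -b k}
      mul_mem' := by
        intro g h hg hh k
        show g.1 (h.1 (b k)) = b k ∨ g.1 (h.1 (b k)) = -b k
        rcases hh k with h1 | h1 <;> rcases hg k with h2 | h2 <;> rw [h1]
        · exact Or.inl h2
        · exact Or.inr h2
        · right; rw [map_neg, h2]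
        · left; rw [map_neg, h2, neg_neg]
      one_mem' := fun k => Or.inl rfl
      inv_mem' := by
        intro g hg k
        show g.1.symm (b k) = b k ∨ g.1.symm (b k) = -b k
        rcases hg k with h1 | h1
        · left; rw [LinearEquiv.symm_apply_eq, h1]
        · right; rw [LinearEquiv.symm_apply_eq, map_neg, h1, neg_neg] }
  refine TwoC.of_cover (QuotientGroup.mk' _) (QuotientGroup.mk'_surjective _) (by rw [QuotientGroup.ker_mk']) D ?_ ?_
  · rintro ⟨g, hg⟩
    refine ⟨1, ?_⟩
    apply Subtype.ext
    show g ^ (2 ^ 1) = 1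
    rw [pow_one, pow_two]
    apply Subtype.ext
    show g.1 * g.1 = 1
    apply LinearEquiv.toLinearMap_injective
    apply b.ext
    intro k
    show g.1 (g.1 (b k)) = b k
    rcases hg k with h1 | h1
    · rw [h1, h1]
    · rw [h1, map_neg, h1, neg_neg]
  · intro g hg
    refine ⟨1, ?_⟩
    have key : g.1 * g.1 = 1 := by
      have hgO : g.1 ∈ O Q := by
        have h1 : ⁅O Q, O Q⁆ ≤ O Q := commutator_le_self _
        exact h1 g.2
      apply sq_of_eig b hgO hne
      -- commuting with the sign changes
      have hc : ∀ i j, i ≠ j → i ≠ Fin.last n → j ≠ Fin.last n → ∀ v, tE b i j (g.1 v) = g.1 (tE b i j v) := by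
        intro i j hij hi hj v
        have hm : tE b i j ∈ ⁅O Q, O Q⁆ := tE_mem b hb1' h2 hij (by rw [hb2' i hi, hb2' j hj])
        have h1 := hg ⟨tE b i j, hm⟩ (by
          intro k
          show tE b i j (b k) = b k ∨ tE b i j (b k) = -b k
          rw [tE_apply]
          split_ifs
          · right; rfl
          · left; rfl)
        have h3 := congrArg (fun x : ↥⁅O Q, O Q⁆ => x.1 v) h1
        exact h3
      have hrep : ∀ i j v l, b.repr (tE b i j v) l = (if l = i ∨ l = j then -1 else 1) * b.repr v l := by
        intro i j v l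
        have h1 : (b.coord l).comp (tE b i j).toLinearMap = (if l = i ∨ l = j then (-1 : F) else 1) • b.coord l := by
          apply b.ext
          intro k
          show b.repr (tE b i j (b k)) l = (if l = i ∨ l = j then (-1 : F) else 1) * b.repr (b k) l
          rw [tE_apply, Basis.repr_self]
          by_cases hkl : k = l
          · subst hkl
            split_ifs <;> simp
          · split_ifs <;> simp [Finsupp.single_apply, hkl]
        have h3 := LinearMap.congr_fun h1 v
        exact h3
      have hneg : ∀ x : F, -x = x → x = 0 := by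
        intro x hx
        have h4 : 2 * x = 0 := by linear_combination -hx
        exact (mul_eq_zero.1 h4).resolve_left h2
      -- a third index
      have third : ∀ k l : Fin (n + 1), ∃ j, j ≠ k ∧ j ≠ l ∧ j ≠ Fin.last n := by
        intro k l
        by_contra hcon
        push Not at hcon
        have h1 : (Finset.univ : Finset (Fin (n + 1))) ⊆ {k, l, Fin.last n} := by
          intro j _
          by_cases hjk : j = k
          · simp [hjk]
          by_cases hjl : j = l
          · simp [hjl]
          simp [hcon j hjk hjl]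
        have h3 := Finset.card_le_card h1
        have h4 : ({k, l, Fin.last n} : Finset (Fin (n + 1))).card ≤ 3 := Finset.card_le_three
        rw [Finset.card_univ, Fintype.card_fin] at h3
        omega
      intro k l hkl
      by_cases hk : k = Fin.last n
      · have hl : l ≠ Fin.last n := fun h => hkl (hk.trans h.symm)
        obtain ⟨j, hjk, hjl, hj⟩ := third k l
        have h1 := hc l j hjl.symm hl hj (b k)
        rw [tE_apply, if_neg (by push Not; exact ⟨hkl, hjk.symm⟩)] at h1
        have h3 := congrArg (fun v => b.repr v l) h1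
        simp only [hrep] at h3
        rw [if_pos (Or.inl trivial)] at h3
        exact hneg _ (by linear_combination h3)
      · obtain ⟨j, hjk, hjl, hj⟩ := third k l
        have h1 := hc k j hjk.symm hk hj (b k)
        rw [tE_apply, if_pos (Or.inl rfl), map_neg] at h1
        have h3 := congrArg (fun v => b.repr v l) h1
        simp only [hrep, map_neg, Finsupp.neg_apply] at h3
        rw [if_neg (by push Not; exact ⟨hkl.symm, hjl.symm⟩)] at h3
        exact hneg _ (by linear_combination -h3)
    have h1 : g ^ 2 = 1 := by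
      apply Subtype.ext
      rw [pow_two]
      exact key
    rw [pow_one, h1]
    exact one_mem _

theorem twoC_form {F : Type*} [Field F] [Finite F] {ι : Type} [Fintype ι] [DecidableEq ι]
    (h2 : (2 : F) ≠ 0) {Q : QuadraticForm F (ι → F)} (hQ : Nondeg Q) (hN : 4 ≤ Fintype.card ι) :
    TwoC (Cfsg.POmega F ⇑Q) := by
  have h := twoC_O h2 hQ (by rw [finrank_fintype_fun_eq_card]; exact hN)
  exact h.congr (quotientCenterCongr (omegaEquiv Q)).symm

/-- **`TwoC` for the simple orthogonal groups in odd characteristic** -/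
theorem twoC_orth {S : Type*} [Group S] {p : ℕ} (hp : p.Prime) (hp2 : p ≠ 2)
    (h : Cfsg.IsPOmegaOddChar p S ∨ Cfsg.IsPOmegaPlusChar p S ∨ Cfsg.IsPOmegaMinusChar p S) : TwoC S := by
  have two : ∀ {F : Type} [Field F] [CharP F p], (2 : F) ≠ 0 := by
    intro F _ _ h
    have h1 := (CharP.cast_eq_zero_iff F p 2).1 (by exact_mod_cast h)
    exact hp2 ((Nat.prime_dvd_prime_iff_eq hp Nat.prime_two).1 h1)
  rcases h with ⟨F, _, _, _, m, hm, -, e⟩ | ⟨F, _, _, _, m, hm, e⟩ | ⟨F, _, _, _, m, a, b, hm, hab, e⟩
  · refine TwoC.of_nonempty ?_ e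
    rw [← coe_oddForm]
    exact twoC_form two (nondeg_oddForm m F two) (by simp; omega)
  · refine TwoC.of_nonempty ?_ e
    rw [← coe_plusForm]
    exact twoC_form two (nondeg_plusForm m F) (by simp; omega)
  · refine TwoC.of_nonempty ?_ e
    rw [← coe_minusForm]
    exact twoC_form two (nondeg_minusForm (m - 1) F a b hab) (by simp; omega)

end Cfsg.Agent.H493.OddDeg.Orth
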